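import Cfsg.Agent.BNPair.Basic

/-!
# Hecke relations indexed by a Weyl group; idempotents from two-dimensional representations
-/

set_option autoImplicit false

namespace Cfsg.Agent.FeitHigman

open BNPair

variable {G : Type*} [Group G] (P : Cfsg.BNPair G)

/-- A family in a real algebra indexed by `W` that multiplies like the standard Hecke basis. -/
structure IsHecke {R : Type*} [Ring R] [Algebra ℝ R] (q : P.S → ℝ) (f : W P → R) : Prop where
  map_one : f 1 = 1
  mul_left : ∀ (u : P.S) (w : W P), len P w < len P (σ P u * w) → f (σ P u * w) = f (σ P u) * f w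
  mul_right : ∀ (u : P.S) (w : W P), len P w < len P (w * σ P u) → f (w * σ P u) = f w * f (σ P u)
  quad : ∀ u : P.S, f (σ P u) * f (σ P u) = q u • (1 : R) + (q u - 1) • f (σ P u)

/-- Weights compatible with `q`. -/
structure IsWeight (q : P.S → ℝ) (qw : W P → ℝ) : Prop where
  pos : ∀ w, 0 < qw w
  qpos : ∀ u, 0 < q u
  mul_left : ∀ (u : P.S) (w : W P), len P w < len P (σ P u * w) → qw (σ P u * w) = q u * qw w
  mul_right : ∀ (u : P.S) (w : W P), len P w < len P (w * σ P u) → qw (w * σ P u) = qw w * q u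

variable {P}
variable {R : Type*} [Ring R] [Algebra ℝ R] {q : P.S → ℝ} {qw : W P → ℝ}
  {f : W P → R} {ρ : W P → Matrix (Fin 2) (Fin 2) ℝ}

theorem len_cases_left (u : P.S) (w : W P) :
    len P w < len P (σ P u * w) ∨ len P (σ P u * w) < len P w :=
  (lt_or_gt_of_ne (len_σ_mul_ne P u w)).symm

theorem IsHecke.left_down (hf : IsHecke P q f) (u : P.S) (w : W P)
    (h : len P (σ P u * w) < len P w) :
    f (σ P u) * f w = q u • f (σ P u * w) + (q u - 1) • f w := by
  have e : f w = f (σ P u) * f (σ P u * w) := by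
    have := hf.mul_left u (σ P u * w) (by rwa [σ_mul_σ_mul])
    rwa [σ_mul_σ_mul] at this
  conv_lhs => rw [e, ← mul_assoc, hf.quad, add_mul, smul_mul_assoc, smul_mul_assoc, one_mul]
  rw [← e]

theorem IsHecke.right_down (hf : IsHecke P q f) (u : P.S) (w : W P)
    (h : len P (w * σ P u) < len P w) :
    f w * f (σ P u) = q u • f (w * σ P u) + (q u - 1) • f w := by
  have e : f w = f (w * σ P u) * f (σ P u) := by
    have := hf.mul_right u (w * σ P u) (by rwa [mul_σ_mul_σ])
    rwa [mul_σ_mul_σ] at this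
  conv_lhs => rw [e, mul_assoc, hf.quad, mul_add, mul_smul_comm, mul_smul_comm, mul_one]
  rw [← e]

theorem IsWeight.left_down (hq : IsWeight P q qw) (u : P.S) (w : W P)
    (h : len P (σ P u * w) < len P w) : qw w = q u * qw (σ P u * w) := by
  have := hq.mul_left u (σ P u * w) (by rwa [σ_mul_σ_mul])
  rwa [σ_mul_σ_mul] at this

theorem IsWeight.right_down (hq : IsWeight P q qw) (u : P.S) (w : W P)
    (h : len P (w * σ P u) < len P w) : qw w = qw (w * σ P u) * q u := by
  have := hq.mul_right u (w * σ P u) (by rwa [mul_σ_mul_σ])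
  rwa [mul_σ_mul_σ] at this

theorem len_mul_inv (u : P.S) (w : W P) :
    len P (w⁻¹ * σ P u) = len P (σ P u * w) := by
  rw [← len_inv P (σ P u * w), mul_inv_rev, σ_inv]

variable [Fintype (W P)]

/-- Matrix coefficient elements. -/
noncomputable def coefElem (qw : W P → ℝ) (f : W P → R) (ρ : W P → Matrix (Fin 2) (Fin 2) ℝ)
    (a b : Fin 2) : R :=
  ∑ w, (ρ w a b / qw w) • f w⁻¹

theorem coefElem_mul_σ (hf : IsHecke P q f) (hρ : IsHecke P q ρ) (hq : IsWeight P q qw)
    (a b : Fin 2) (u : P.S) :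
    coefElem qw f ρ a b * f (σ P u) =
      ∑ c, ρ (σ P u) a c • coefElem qw f ρ c b := by
  have hterm : ∀ w, (ρ w a b / qw w) • f w⁻¹ * f (σ P u) =
      (if len P w < len P (σ P u * w) then ρ w a b / qw w else q u * ρ w a b / qw w) •
          f (σ P u * w)⁻¹ +
        (if len P w < len P (σ P u * w) then (0 : ℝ) else (q u - 1) * ρ w a b / qw w) • f w⁻¹ := by
    intro w
    rw [smul_mul_assoc, mul_inv_rev, σ_inv]
    rcases len_cases_left u w with h | h
    · rw [if_pos h, if_pos h, zero_smul, add_zero,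
        hf.mul_right u w⁻¹ (by rw [len_mul_inv, len_inv]; exact h)]
    · rw [if_neg h.not_gt, if_neg h.not_gt,
        hf.right_down u w⁻¹ (by rw [len_mul_inv, len_inv]; exact h), smul_add, smul_smul, smul_smul]
      congr 1 <;> congr 1 <;> ring
  rw [coefElem, Finset.sum_mul, Finset.sum_congr rfl (fun w _ => hterm w), Finset.sum_add_distrib]
  rw [← Equiv.sum_comp (Equiv.mulLeft (σ P u)) (fun w =>
    (if len P w < len P (σ P u * w) then ρ w a b / qw w else q u * ρ w a b / qw w) •
      f (σ P u * w)⁻¹)]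
  simp only [Equiv.coe_mulLeft, σ_mul_σ_mul, coefElem, Finset.smul_sum, smul_smul]
  rw [← Finset.sum_add_distrib, Finset.sum_comm]
  refine Finset.sum_congr rfl fun v _ => ?_
  rw [← add_smul, ← Finset.sum_smul]
  congr 1
  have hmul : ∑ c, ρ (σ P u) a c * (ρ v c b / qw v) = (ρ (σ P u) * ρ v) a b / qw v := by
    rw [Matrix.mul_apply, Finset.sum_div]
    exact Finset.sum_congr rfl fun c _ => by ring
  rw [hmul]
  have hv := (hq.pos v).ne'
  have hu := (hq.qpos u).ne'
  rcases len_cases_left u v with h | h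
  · rw [if_neg h.not_gt, if_pos h, add_zero, hq.mul_left u v h, ← hρ.mul_left u v h]
    field_simp
  · rw [if_pos h, if_neg h.not_gt, hρ.left_down u v h, hq.left_down u v h]
    have hv' := (hq.pos (σ P u * v)).ne'
    simp only [Matrix.add_apply, Matrix.smul_apply, smul_eq_mul]
    field_simp

theorem σ_mul_coefElem (hf : IsHecke P q f) (hρ : IsHecke P q ρ) (hq : IsWeight P q qw)
    (a b : Fin 2) (u : P.S) :
    f (σ P u) * coefElem qw f ρ a b =
      ∑ c, ρ (σ P u) c b • coefElem qw f ρ a c := by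
  have hlen : ∀ w, len P (σ P u * w⁻¹) = len P (w * σ P u) := fun w => by
    rw [← len_inv P (σ P u * w⁻¹), mul_inv_rev, σ_inv, inv_inv]
  have hcases : ∀ w, len P w < len P (w * σ P u) ∨ len P (w * σ P u) < len P w := fun w => by
    rcases len_mul_σ P u w with h | h <;> omega
  have hterm : ∀ w, f (σ P u) * ((ρ w a b / qw w) • f w⁻¹) =
      (if len P w < len P (w * σ P u) then ρ w a b / qw w else q u * ρ w a b / qw w) •
          f (w * σ P u)⁻¹ +
        (if len P w < len P (w * σ P u) then (0 : ℝ) else (q u - 1) * ρ w a b / qw w) • f w⁻¹ := by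
    intro w
    rw [mul_smul_comm, mul_inv_rev, σ_inv]
    rcases hcases w with h | h
    · rw [if_pos h, if_pos h, zero_smul, add_zero,
        hf.mul_left u w⁻¹ (by rw [hlen, len_inv]; exact h)]
    · rw [if_neg h.not_gt, if_neg h.not_gt,
        hf.left_down u w⁻¹ (by rw [hlen, len_inv]; exact h), smul_add, smul_smul, smul_smul]
      congr 1 <;> congr 1 <;> ring
  rw [coefElem, Finset.mul_sum, Finset.sum_congr rfl (fun w _ => hterm w), Finset.sum_add_distrib]
  rw [← Equiv.sum_comp (Equiv.mulRight (σ P u)) (fun w =>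
    (if len P w < len P (w * σ P u) then ρ w a b / qw w else q u * ρ w a b / qw w) •
      f (w * σ P u)⁻¹)]
  simp only [Equiv.coe_mulRight, mul_σ_mul_σ, coefElem, Finset.smul_sum, smul_smul]
  rw [← Finset.sum_add_distrib, Finset.sum_comm]
  refine Finset.sum_congr rfl fun v _ => ?_
  rw [← add_smul, ← Finset.sum_smul]
  congr 1
  have hmul : ∑ c, ρ (σ P u) c b * (ρ v a c / qw v) = (ρ v * ρ (σ P u)) a b / qw v := by
    rw [Matrix.mul_apply, Finset.sum_div]
    exact Finset.sum_congr rfl fun c _ => by ring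
  rw [hmul]
  have hv := (hq.pos v).ne'
  have hu := (hq.qpos u).ne'
  rcases hcases v with h | h
  · rw [if_neg h.not_gt, if_pos h, add_zero, hq.mul_right u v h, ← hρ.mul_right u v h]
    field_simp
  · rw [if_pos h, if_neg h.not_gt, hρ.right_down u v h, hq.right_down u v h]
    have hv' := (hq.pos (v * σ P u)).ne'
    simp only [Matrix.add_apply, Matrix.smul_apply, smul_eq_mul]
    field_simp

theorem coefElem_mul (hf : IsHecke P q f) (hρ : IsHecke P q ρ) (hq : IsWeight P q qw)
    (v : W P) (a b : Fin 2) :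
    coefElem qw f ρ a b * f v = ∑ c, ρ v a c • coefElem qw f ρ c b := by
  suffices key : ∀ k, ∀ v : W P, len P v = k → ∀ a b : Fin 2,
      coefElem qw f ρ a b * f v = ∑ c, ρ v a c • coefElem qw f ρ c b from key _ v rfl a b
  intro k
  induction k with
  | zero =>
    intro v hv a b
    obtain rfl := eq_one_of_len_eq_zero P hv
    rw [hf.map_one, mul_one, hρ.map_one]
    simp [Matrix.one_apply, ite_smul]
  | succ k ih =>
    intro v hv a b
    obtain ⟨u, v', rfl, hlen⟩ := exists_cons P (w := v) (by rintro rfl; simp at hv)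
    have hup : len P v' < len P (σ P u * v') := by omega
    rw [hf.mul_left u v' hup, ← mul_assoc, coefElem_mul_σ hf hρ hq, Finset.sum_mul]
    simp only [smul_mul_assoc, ih v' (by omega), Finset.smul_sum, smul_smul]
    rw [Finset.sum_comm]
    refine Finset.sum_congr rfl fun c _ => ?_
    rw [← Finset.sum_smul, hρ.mul_left u v' hup, Matrix.mul_apply]

/-- The central element attached to `ρ`. -/
noncomputable def charElem (qw : W P → ℝ) (f : W P → R)
    (ρ : W P → Matrix (Fin 2) (Fin 2) ℝ) : R :=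
  ∑ w, ((ρ w).trace / qw w) • f w⁻¹

theorem charElem_eq (qw : W P → ℝ) (f : W P → R) (ρ : W P → Matrix (Fin 2) (Fin 2) ℝ) :
    charElem qw f ρ = ∑ a, coefElem qw f ρ a a := by
  simp only [charElem, coefElem]
  rw [Finset.sum_comm]
  refine Finset.sum_congr rfl fun w _ => ?_
  rw [← Finset.sum_smul, ← Finset.sum_div]
  rfl

theorem charElem_commute_σ (hf : IsHecke P q f) (hρ : IsHecke P q ρ) (hq : IsWeight P q qw)
    (u : P.S) : f (σ P u) * charElem qw f ρ = charElem qw f ρ * f (σ P u) := by
  rw [charElem_eq, Finset.mul_sum, Finset.sum_mul]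
  simp only [coefElem_mul_σ hf hρ hq, σ_mul_coefElem hf hρ hq]
  exact Finset.sum_comm

/-- If `ρ` has scalar commutant, `charElem` is a multiple of an idempotent. -/
theorem charElem_sq (hf : IsHecke P q f) (hρ : IsHecke P q ρ) (hq : IsWeight P q qw)
    (hirr : ∀ M : Matrix (Fin 2) (Fin 2) ℝ, (∀ u, ρ (σ P u) * M = M * ρ (σ P u)) →
      M 0 1 = 0 ∧ M 1 0 = 0 ∧ M 0 0 = M 1 1) :
    charElem qw f ρ * charElem qw f ρ =
      ((∑ w, (ρ w).trace * (ρ w⁻¹).trace / qw w) / 2) • charElem qw f ρ := by
  set c := (∑ w, (ρ w).trace * (ρ w⁻¹).trace / qw w) / 2 with hc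
  set M := charElem qw ρ ρ with hM
  have hentry : ∀ a b : Fin 2, M a b = ∑ w, (ρ w).trace / qw w * ρ w⁻¹ a b := by
    intro a b
    rw [hM, charElem, Matrix.sum_apply]
    simp [Matrix.smul_apply]
  obtain ⟨h01, h10, h00⟩ := hirr M fun u => charElem_commute_σ hρ hρ hq u
  have htr : M 0 0 + M 1 1 = 2 * c := by
    rw [hc, hentry, hentry, ← Finset.sum_add_distrib, mul_div_cancel₀ _ two_ne_zero]
    refine Finset.sum_congr rfl fun w _ => ?_
    rw [Matrix.trace_fin_two (ρ w⁻¹)]
    ring
  have hdiag : ∀ a b : Fin 2, M a b = if a = b then c else 0 := by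
    intro a b
    fin_cases a <;> fin_cases b <;> simp <;> linarith
  calc charElem qw f ρ * charElem qw f ρ
      = ∑ w, ((ρ w).trace / qw w) • (charElem qw f ρ * f w⁻¹) := by
        conv_lhs => arg 2; rw [charElem]
        rw [Finset.mul_sum]
        simp only [mul_smul_comm]
    _ = ∑ w, ((ρ w).trace / qw w) • ∑ a, ∑ b, ρ w⁻¹ a b • coefElem qw f ρ b a := by
        refine Finset.sum_congr rfl fun w _ => ?_
        rw [charElem_eq, Finset.sum_mul]
        simp only [coefElem_mul hf hρ hq]
    _ = ∑ a, ∑ b, M a b • coefElem qw f ρ b a := by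
        simp only [Finset.smul_sum, smul_smul, hentry, Finset.sum_smul]
        rw [Finset.sum_comm]
        refine Finset.sum_congr rfl fun a _ => ?_
        rw [Finset.sum_comm]
    _ = c • charElem qw f ρ := by
        simp only [hdiag, ite_smul, zero_smul, Finset.sum_ite_eq, Finset.mem_univ, if_true]
        rw [charElem_eq, Finset.smul_sum]

end Cfsg.Agent.FeitHigman
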