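import Cfsg.Agent.FeitHigman.Hecke

/-!
# The double coset operators on `G / B`
-/

set_option autoImplicit false

namespace Cfsg.Agent.FeitHigman

open BNPair Matrix

variable {G : Type*} [Group G] (P : Cfsg.BNPair G)

/-- The relative position of two cosets. -/
noncomputable def rel (x y : G ⧸ P.B) : W P := bw P (x.out⁻¹ * y.out)

theorem rel_mk (g h : G) : rel P (g : G ⧸ P.B) (h : G ⧸ P.B) = bw P (g⁻¹ * h) := by
  obtain ⟨b, hb⟩ := QuotientGroup.mk_out_eq_mul P.B g
  obtain ⟨c, hc⟩ := QuotientGroup.mk_out_eq_mul P.B h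
  rw [rel, hb, hc]
  have e : (g * (b : G))⁻¹ * (h * (c : G)) = (b : G)⁻¹ * (g⁻¹ * h) * (c : G) := by group
  rw [e, bw_conj_B P (P.B.inv_mem b.2) c.2]

theorem rel_swap (x y : G ⧸ P.B) : rel P y x = (rel P x y)⁻¹ := by
  rw [rel, rel, ← bw_inv, _root_.mul_inv_rev, inv_inv]

theorem rel_eq_one (x y : G ⧸ P.B) : rel P x y = 1 ↔ x = y := by
  induction x using QuotientGroup.induction_on with
  | H g =>
    induction y using QuotientGroup.induction_on with
    | H h => rw [rel_mk, bw_eq_one_iff, QuotientGroup.eq]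

theorem rel_self (x : G ⧸ P.B) : rel P x x = 1 := (rel_eq_one P x x).2 rfl

theorem rel_smul (g : G) (x y : G ⧸ P.B) : rel P (g • x) (g • y) = rel P x y := by
  induction x using QuotientGroup.induction_on with
  | H a =>
    induction y using QuotientGroup.induction_on with
    | H b =>
      show rel P ((g * a : G) : G ⧸ P.B) ((g * b : G) : G ⧸ P.B) = _
      rw [rel_mk, rel_mk]
      congr 1
      group

theorem bw_mul_σ_cases (u : P.S) {a c : G} (ha : bw P a = σ P u) :
    bw P (a * c) = σ P u * bw P c ∨ bw P (a * c) = bw P c := by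
  obtain ⟨b, hb, b', hb', e⟩ :=
    exists_eq_mul_mul' P (g := a) (n := ⟨(u : G), P.subset u.2⟩) ha
  have e' : a * c = b * ((u : G) * b' * c) := by rw [e]; group
  rw [e', bw_B_mul P hb]
  rcases smul_C_subset P u (mem_C_bw P c) hb' with h | h <;> rw [mem_C_iff] at h
  exacts [Or.inl h, Or.inr h]

theorem bw_mul_σ_of_le (u : P.S) {a c : G} (ha : bw P a = σ P u)
    (h : len P (bw P c) ≤ len P (σ P u * bw P c)) : bw P (a * c) = σ P u * bw P c := by
  obtain ⟨b, hb, b', hb', e⟩ :=
    exists_eq_mul_mul' P (g := a) (n := ⟨(u : G), P.subset u.2⟩) ha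
  have e' : a * c = b * ((u : G) * b' * c) := by rw [e]; group
  rw [e', bw_B_mul P hb, bw_s_mul_of_le P u hb' h]

theorem rel_cases (u : P.S) {x z : G ⧸ P.B} (y : G ⧸ P.B) (h : rel P x z = σ P u) :
    rel P x y = σ P u * rel P z y ∨ rel P x y = rel P z y := by
  induction x using QuotientGroup.induction_on with
  | H a =>
    induction y using QuotientGroup.induction_on with
    | H b =>
      induction z using QuotientGroup.induction_on with
      | H c =>
        rw [rel_mk] at h
        rw [rel_mk, rel_mk]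
        have e : a⁻¹ * b = (a⁻¹ * c) * (c⁻¹ * b) := by group
        rw [e]
        exact bw_mul_σ_cases P u h

theorem rel_of_le (u : P.S) {x z : G ⧸ P.B} (y : G ⧸ P.B) (h : rel P x z = σ P u)
    (hl : len P (rel P z y) ≤ len P (σ P u * rel P z y)) :
    rel P x y = σ P u * rel P z y := by
  induction x using QuotientGroup.induction_on with
  | H a =>
    induction y using QuotientGroup.induction_on with
    | H b =>
      induction z using QuotientGroup.induction_on with
      | H c =>
        rw [rel_mk] at h hl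
        rw [rel_mk, rel_mk]
        have e : a⁻¹ * b = (a⁻¹ * c) * (c⁻¹ * b) := by group
        rw [e]
        exact bw_mul_σ_of_le P u h hl

theorem existsUnique_mid (u : P.S) (w : W P) (h : len P w < len P (σ P u * w))
    {x y : G ⧸ P.B} (hxy : rel P x y = σ P u * w) :
    ∃! z : G ⧸ P.B, rel P x z = σ P u ∧ rel P z y = w := by
  induction x using QuotientGroup.induction_on with
  | H a =>
    induction y using QuotientGroup.induction_on with
    | H c =>
      rw [rel_mk] at hxy
      obtain ⟨n, hn⟩ := π_surjective P w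
      obtain ⟨b, hb, b', hb', e⟩ := exists_eq_mul_mul' P (g := a⁻¹ * c)
        (n := ⟨(u : G), P.subset u.2⟩ * n) (by rw [hxy, map_mul, hn]; rfl)
      refine ⟨((a * b * (u : G) : G) : G ⧸ P.B), ⟨?_, ?_⟩, ?_⟩
      · rw [rel_mk, show a⁻¹ * (a * b * (u : G)) = b * (u : G) by group, bw_B_mul P hb, bw_coe_σ]
      · rw [rel_mk]
        have e' : (a * b * (u : G))⁻¹ * c = (n : G) * b' := by
          calc (a * b * (u : G))⁻¹ * c = (u : G)⁻¹ * b⁻¹ * (a⁻¹ * c) := by group
            _ = (n : G) * b' := by rw [e]; simp [mul_assoc]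
        rw [e', bw_mul_B P hb', bw_coe, hn]
      · intro z' ⟨h1, h2⟩
        set z : G ⧸ P.B := ((a * b * (u : G) : G) : G ⧸ P.B) with hz
        have hz1 : rel P (a : G ⧸ P.B) z = σ P u := by
          rw [hz, rel_mk, show a⁻¹ * (a * b * (u : G)) = b * (u : G) by group, bw_B_mul P hb,
            bw_coe_σ]
        have hz2 : rel P z (c : G ⧸ P.B) = w := by
          rw [hz, rel_mk]
          have e' : (a * b * (u : G))⁻¹ * c = (n : G) * b' := by
            calc (a * b * (u : G))⁻¹ * c = (u : G)⁻¹ * b⁻¹ * (a⁻¹ * c) := by group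
              _ = (n : G) * b' := by rw [e]; simp [mul_assoc]
          rw [e', bw_mul_B P hb', bw_coe, hn]
        have hz3 : rel P z (a : G ⧸ P.B) = σ P u := by rw [rel_swap, hz1, σ_inv]
        have h3 := rel_cases P u z' hz3
        rw [h1, σ_mul_self] at h3
        rcases h3 with h3 | h3
        · exact ((rel_eq_one P _ _).1 h3).symm
        · exfalso
          have h4 := rel_of_le P u (c : G ⧸ P.B) h3 (by rw [h2]; exact h.le)
          rw [hz2, h2] at h4
          rw [← h4] at h
          exact lt_irrefl _ h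

variable [Fintype (G ⧸ P.B)] [DecidableEq (W P)] [DecidableEq (G ⧸ P.B)]

/-- The double coset operator. -/
noncomputable def opT (w : W P) : Matrix (G ⧸ P.B) (G ⧸ P.B) ℝ :=
  Matrix.of fun x y => if rel P x y = w then 1 else 0

/-- The number of cosets in a given relative position to the base coset. -/
noncomputable def cnt (w : W P) : ℝ :=
  ((Finset.univ.filter fun y : G ⧸ P.B => rel P ((1 : G) : G ⧸ P.B) y = w).card : ℝ)

theorem opT_transpose (w : W P) : (opT P w)ᵀ = opT P w⁻¹ := by
  ext x y
  simp only [transpose_apply, opT, of_apply]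
  rw [rel_swap P x y]
  simp [inv_eq_iff_eq_inv]

theorem opT_one : opT P (1 : W P) = 1 := by
  ext x y
  simp only [opT, of_apply, rel_eq_one, Matrix.one_apply]

theorem opT_mul_apply (v w : W P) (x y : G ⧸ P.B) :
    (opT P v * opT P w) x y =
      ((Finset.univ.filter fun z : G ⧸ P.B => rel P x z = v ∧ rel P z y = w).card : ℝ) := by
  simp only [opT, Matrix.mul_apply, of_apply, ite_mul, one_mul, zero_mul, ← ite_and]
  rw [Finset.sum_boole]

theorem opT_mul_left (u : P.S) (w : W P) (h : len P w < len P (σ P u * w)) :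
    opT P (σ P u * w) = opT P (σ P u) * opT P w := by
  ext x y
  rw [opT_mul_apply]
  simp only [opT, of_apply]
  split_ifs with hxy
  · obtain ⟨z, hz, huniq⟩ := existsUnique_mid P u w h hxy
    have : (Finset.univ.filter fun z : G ⧸ P.B => rel P x z = σ P u ∧ rel P z y = w) = {z} := by
      ext z'
      simp only [Finset.mem_filter, Finset.mem_univ, true_and, Finset.mem_singleton]
      exact ⟨huniq z', fun e => e ▸ hz⟩
    rw [this]; simp
  · have : (Finset.univ.filter fun z : G ⧸ P.B => rel P x z = σ P u ∧ rel P z y = w) = ∅ := by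
      refine Finset.filter_eq_empty_iff.2 fun z _ ⟨h1, h2⟩ => hxy ?_
      rw [rel_of_le P u y h1 (by rw [h2]; exact h.le), h2]
    rw [this]; simp

theorem opT_mul_right (u : P.S) (w : W P) (h : len P w < len P (w * σ P u)) :
    opT P (w * σ P u) = opT P w * opT P (σ P u) := by
  have h' : len P w⁻¹ < len P (σ P u * w⁻¹) := by
    rwa [len_inv, ← len_inv P (σ P u * w⁻¹), _root_.mul_inv_rev, σ_inv, inv_inv]
  apply Matrix.transpose_injective
  rw [transpose_mul, opT_transpose, opT_transpose, opT_transpose, _root_.mul_inv_rev, σ_inv]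
  exact opT_mul_left P u _ h'

theorem cnt_eq_filter (x : G ⧸ P.B) (w : W P) :
    cnt P w = ((Finset.univ.filter fun y : G ⧸ P.B => rel P x y = w).card : ℝ) := by
  induction x using QuotientGroup.induction_on with
  | H a =>
    rw [cnt, Nat.cast_inj]
    refine Finset.card_bij (fun y _ => a • y) ?_ ?_ ?_
    · intro y hy
      simp only [Finset.mem_filter, Finset.mem_univ, true_and] at hy ⊢
      rw [← hy, ← rel_smul P a ((1 : G) : G ⧸ P.B) y]
      congr 1
      show (a : G ⧸ P.B) = ((a * 1 : G) : G ⧸ P.B)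
      rw [mul_one]
    · intro y _ y' _ e
      exact smul_left_cancel a e
    · intro y hy
      refine ⟨a⁻¹ • y, ?_, smul_inv_smul a y⟩
      simp only [Finset.mem_filter, Finset.mem_univ, true_and] at hy ⊢
      rw [← rel_smul P a, smul_inv_smul]
      show rel P ((a * 1 : G) : G ⧸ P.B) y = w
      rw [mul_one]; exact hy

theorem opT_mulVec_one (w : W P) :
    opT P w *ᵥ (fun _ => (1 : ℝ)) = fun _ => cnt P w := by
  funext x
  rw [cnt_eq_filter P x]
  simp [opT, Matrix.mulVec, dotProduct, Finset.sum_boole]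

theorem cnt_mul_left (u : P.S) (w : W P) (h : len P w < len P (σ P u * w)) :
    cnt P (σ P u * w) = cnt P (σ P u) * cnt P w := by
  have e : opT P (σ P u * w) *ᵥ (fun _ => (1 : ℝ)) =
      (fun _ => cnt P (σ P u) * cnt P w) := by
    rw [opT_mul_left P u w h, ← Matrix.mulVec_mulVec, opT_mulVec_one]
    funext x
    have := congrFun (opT_mulVec_one P (σ P u)) x
    simp only [Matrix.mulVec, dotProduct, mul_one] at this ⊢
    rw [← Finset.sum_mul, this]
  rw [opT_mulVec_one] at e
  exact congrFun e ((1 : G) : G ⧸ P.B)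

theorem cnt_mul_right (u : P.S) (w : W P) (h : len P w < len P (w * σ P u)) :
    cnt P (w * σ P u) = cnt P w * cnt P (σ P u) := by
  have e : opT P (w * σ P u) *ᵥ (fun _ => (1 : ℝ)) =
      (fun _ => cnt P w * cnt P (σ P u)) := by
    rw [opT_mul_right P u w h, ← Matrix.mulVec_mulVec, opT_mulVec_one]
    funext x
    have := congrFun (opT_mulVec_one P w) x
    simp only [Matrix.mulVec, dotProduct, mul_one] at this ⊢
    rw [← Finset.sum_mul, this]
  rw [opT_mulVec_one] at e
  exact congrFun e ((1 : G) : G ⧸ P.B)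

theorem cnt_pos (w : W P) : 0 < cnt P w := by
  obtain ⟨n, hn⟩ := π_surjective P w
  rw [cnt, Nat.cast_pos, Finset.card_pos]
  refine ⟨((n : G) : G ⧸ P.B), Finset.mem_filter.2 ⟨Finset.mem_univ _, ?_⟩⟩
  rw [rel_mk, inv_one, one_mul, bw_coe, hn]

theorem two_le_cnt (u : P.S) : 2 ≤ cnt P (σ P u) := by
  obtain ⟨b, hb, hbu⟩ := exists_bw_s_mul_eq P u (g := (u : G))
    (by rw [bw_coe_σ, σ_mul_self, len_one]; exact Nat.zero_le _)
  rw [bw_coe_σ] at hbu
  have : 2 ≤ (Finset.univ.filter
      fun y : G ⧸ P.B => rel P ((1 : G) : G ⧸ P.B) y = σ P u).card := by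
    refine Finset.one_lt_card.2 ⟨((u : G) : G ⧸ P.B), ?_, ((b * u : G) : G ⧸ P.B), ?_, ?_⟩
    · simp only [Finset.mem_filter, Finset.mem_univ, true_and]
      rw [rel_mk, inv_one, one_mul, bw_coe_σ]
    · simp only [Finset.mem_filter, Finset.mem_univ, true_and]
      rw [rel_mk, inv_one, one_mul, bw_B_mul P hb, bw_coe_σ]
    · intro e
      rw [QuotientGroup.eq] at e
      have h1 : bw P ((u : G) * b * u) = 1 := by
        rw [bw_eq_one_iff]
        have h2 : (u : G) * b * u = ((u : G) * u) * ((u : G)⁻¹ * (b * u)) := by group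
        rw [h2]
        exact P.B.mul_mem (P.sq_mem u u.2) e
      rw [h1] at hbu
      exact σ_ne_one P u hbu.symm
  rw [cnt]
  exact_mod_cast this

theorem opT_quad (u : P.S) :
    opT P (σ P u) * opT P (σ P u) =
      cnt P (σ P u) • (1 : Matrix (G ⧸ P.B) (G ⧸ P.B) ℝ) +
        (cnt P (σ P u) - 1) • opT P (σ P u) := by
  ext x y
  rw [opT_mul_apply]
  simp only [Matrix.add_apply, Matrix.smul_apply, Matrix.one_apply, smul_eq_mul, opT, of_apply]
  by_cases hxy : x = y
  · subst hxy
    rw [if_pos rfl, rel_self, if_neg (Ne.symm (σ_ne_one P u)), mul_one, mul_zero, add_zero,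
      cnt_eq_filter P x, Nat.cast_inj]
    congr 1
    refine Finset.filter_congr fun z _ => ?_
    exact ⟨fun h => h.1, fun h => ⟨h, by rw [rel_swap, h, σ_inv]⟩⟩
  rw [if_neg hxy, mul_zero, zero_add]
  by_cases hu : rel P x y = σ P u
  · rw [if_pos hu, mul_one, cnt_eq_filter P x]
    have hset : (Finset.univ.filter fun z : G ⧸ P.B => rel P x z = σ P u ∧ rel P z y = σ P u) =
        (Finset.univ.filter fun z : G ⧸ P.B => rel P x z = σ P u).erase y := by
      ext z
      simp only [Finset.mem_filter, Finset.mem_univ, true_and, Finset.mem_erase]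
      constructor
      · rintro ⟨h1, h2⟩
        exact ⟨fun e => σ_ne_one P u (by rw [← h2, e, rel_self]), h1⟩
      · rintro ⟨h1, h2⟩
        refine ⟨h2, ?_⟩
        have hzx : rel P z x = σ P u := by rw [rel_swap, h2, σ_inv]
        rcases rel_cases P u y hzx with h | h
        · rw [hu, σ_mul_self] at h
          exact absurd ((rel_eq_one P _ _).1 h) h1
        · rw [h, hu]
    rw [hset, Finset.card_erase_of_mem (by simp [hu]), Nat.cast_sub (Finset.card_pos.2
      ⟨y, by simp [hu]⟩)]
    simp
  · rw [if_neg hu, mul_zero, Nat.cast_eq_zero, Finset.card_eq_zero]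
    refine Finset.filter_eq_empty_iff.2 fun z _ ⟨h1, h2⟩ => ?_
    rcases rel_cases P u y h1 with h | h
    · rw [h2, σ_mul_self] at h
      exact hxy ((rel_eq_one P _ _).1 h)
    · exact hu (h.trans h2)

theorem isHecke_opT : IsHecke P (fun u => cnt P (σ P u)) (opT P) :=
  ⟨opT_one P, opT_mul_left P, opT_mul_right P, opT_quad P⟩

theorem isWeight_cnt : IsWeight P (fun u => cnt P (σ P u)) (cnt P) :=
  ⟨cnt_pos P, fun u => cnt_pos P (σ P u), cnt_mul_left P, cnt_mul_right P⟩

theorem trace_opT (w : W P) :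
    (opT P w).trace = if w = 1 then (Fintype.card (G ⧸ P.B) : ℝ) else 0 := by
  simp only [Matrix.trace, Matrix.diag, opT, of_apply, rel_self]
  split_ifs with h h' h'
  · simp
  · exact absurd h.symm h'
  · exact absurd h'.symm h
  · simp

theorem exists_rat_of_idempotent {n : Type*} [Fintype n] [DecidableEq n] {E : Matrix n n ℝ}
    {c d : ℝ} (hc : c ≠ 0) (hE : E * E = c • E) (htr : E.trace = d) :
    ∃ k : ℕ, d = k * c := by
  have hidem : IsIdempotentElem (c⁻¹ • E) := by
    show _ * _ = _
    rw [smul_mul_smul_comm, hE, smul_smul]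
    congr 1
    field_simp
  have hproj := LinearMap.IsIdempotentElem.isProj_range _
    (show IsIdempotentElem (Matrix.toLin' (c⁻¹ • E)) by
      show _ * _ = _
      rw [Module.End.mul_eq_comp, ← Matrix.toLin'_mul, hidem])
  refine ⟨Module.finrank ℝ (LinearMap.range (Matrix.toLin' (c⁻¹ • E))), ?_⟩
  have h := hproj.trace
  rw [Matrix.trace_toLin'_eq, Matrix.trace_smul, htr, smul_eq_mul] at h
  rw [← h]
  field_simp

end Cfsg.Agent.FeitHigman
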